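import Mathlib.GroupTheory.SpecificGroups.Alternating.Centralizer

/-!
# Lifts of disjoint permutations commute; odd permutations commuting with `p^w` (helper112, task 3933 for S4578)

* `comm_of_disjoint` : in an extension of `Sym(n)` by a central subgroup `{1, z}` the lifts of two disjoint permutations,
  one of them even, commute;
* `exists_odd_swap` : a permutation of cycle type `p^w`, `w ≥ 2`, commutes with an odd permutation of its support.
-/

set_option autoImplicit false

namespace Cfsg.Agent.H112.Comm

open Equiv Equiv.Perm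

theorem comm_of_disjoint {n : ℕ} {T : Type*} [Group T] {P : T →* Equiv.Perm (Fin n)} {z : T}
    (surj : Function.Surjective P) (z_comm : ∀ x, x * z = z * x)
    (ker : ∀ x, P x = 1 ↔ x = 1 ∨ x = z) {t x : T} (hd : Equiv.Perm.Disjoint (P t) (P x))
    (hx : P x ∈ alternatingGroup (Fin n)) : t * x = x * t := by
  classical
  let S : Fin n → Prop := fun a => P t a = a
  have hdS : ∀ σ : Perm (Subtype S), Equiv.Perm.Disjoint (P t) (ofSubtype σ) := by
    intro σ a
    by_cases ha : P t a = a
    · exact Or.inl ha
    · exact Or.inr (ofSubtype_apply_of_not_mem σ ha)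
  have hkc : ∀ y, P y = 1 → ∀ w, w * y = y * w := by
    intro y hy w
    rcases (ker y).1 hy with rfl | rfl
    · rw [mul_one, one_mul]
    · exact z_comm w
  -- generators
  have key : ∀ σ ∈ Subgroup.closure {σ : Perm (Subtype S) | IsThreeCycle σ}, ∀ y : T,
      P y = ofSubtype σ → t * y = y * t := by
    intro σ hσ
    induction hσ using Subgroup.closure_induction with
    | mem σ hσ =>
      intro y hy
      have h3 : y ^ 3 * t = t * y ^ 3 := by
        refine (hkc _ ?_ t).symm
        rw [map_pow, hy, ← map_pow]
        have : σ ^ 3 = 1 := by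
          have := pow_orderOf_eq_one σ
          rwa [IsThreeCycle.orderOf hσ] at this
        rw [this, map_one]
      have hc : P t * P y = P y * P t := by rw [hy]; exact (hdS σ).commute
      have hk : P ((t * y * t⁻¹) * y⁻¹) = 1 := by
        rw [map_mul, map_mul, map_mul, map_inv, map_inv, hc]
        group
      rcases (ker _).1 hk with h1 | h1
      · have h2 : t * y * t⁻¹ = y := mul_inv_eq_one.1 h1
        exact (mul_inv_eq_iff_eq_mul.1 h2)
      · have h2 : t * y * t⁻¹ = z * y := mul_inv_eq_iff_eq_mul.1 h1
        have h4 : (t * y * t⁻¹) ^ 3 = y ^ 3 := by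
          rw [conj_pow, mul_inv_eq_iff_eq_mul, h3]
        have hcz : Commute z y := (z_comm y).symm
        rw [h2, hcz.mul_pow] at h4
        have h5 : z ^ 3 = 1 := by
          have := mul_eq_right.1 h4
          exact this
        have h6 : z ^ 2 = 1 := by
          have h7 : P (z ^ 2) = 1 := by rw [map_pow, (ker z).2 (Or.inr rfl), one_pow]
          rcases (ker _).1 h7 with h8 | h8
          · exact h8
          · have : z = 1 := by
              have h9 : z * z = z := by rw [← pow_two]; exact h8
              exact mul_eq_left.1 h9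
            rw [this, one_pow]
        have h7 : z = 1 := by
          have h8 : z ^ 3 = z ^ 2 * z := pow_succ z 2
          rw [h5, h6, one_mul] at h8
          exact h8.symm
        rw [h7, one_mul] at h2
        exact mul_inv_eq_iff_eq_mul.1 h2
    | one =>
      intro y hy
      rw [map_one] at hy
      exact hkc y hy t
    | mul σ τ _ _ ih1 ih2 =>
      intro y hy
      obtain ⟨a, ha⟩ := surj (ofSubtype σ)
      have h1 := ih1 a ha
      have h2 := ih2 (a⁻¹ * y) (by rw [map_mul, map_inv, ha, hy, map_mul, inv_mul_cancel_left])
      have e : y = a * (a⁻¹ * y) := by group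
      calc t * y = t * (a * (a⁻¹ * y)) := by rw [← e]
        _ = a * (t * (a⁻¹ * y)) := by rw [← mul_assoc, h1, mul_assoc]
        _ = a * (a⁻¹ * y) * t := by rw [h2]; group
        _ = y * t := by rw [← e]
    | inv σ _ ih =>
      intro y hy
      have h1 := ih y⁻¹ (by rw [map_inv, hy, map_inv, inv_inv])
      have h2 : Commute t y⁻¹ := h1
      exact Commute.inv_right_iff.1 h2
  -- the permutation `P x`
  have hfix : ∀ a, P x a ≠ a → S a := fun a ha => (hd a).resolve_right ha
  have hS : ∀ a, S (P x a) ↔ S a := by
    intro a
    have hc : P t (P x a) = P x (P t a) := by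
      have := hd.commute
      exact congrArg (fun σ : Perm (Fin n) => σ a) this
    constructor
    · intro h
      exact (P x).injective (hc.symm.trans h)
    · intro h
      change P t (P x a) = P x a
      rw [hc, h]
  have h1 : ofSubtype (subtypePerm (P x) hS) = P x := ofSubtype_subtypePerm hS hfix
  refine key (subtypePerm (P x) hS) ?_ x h1.symm
  rw [closure_three_cycles_eq_alternating, mem_alternatingGroup]
  rw [mem_alternatingGroup, ← h1, sign_ofSubtype] at hx
  exact hx

theorem exists_odd_swap {n p w : ℕ} (hw : 2 ≤ w) {σ : Equiv.Perm (Fin n)}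
    (h : σ.cycleType = Multiset.replicate w p) :
    ∃ τ : Equiv.Perm (Fin n), Equiv.Perm.sign τ = -1 ∧ τ * σ = σ * τ ∧ τ.support ⊆ σ.support := by
  classical
  have hS : ∀ a, σ a ∈ σ.support ↔ a ∈ σ.support := fun a => apply_mem_support
  let S : Fin n → Prop := fun a => a ∈ σ.support
  have h1 : ofSubtype (subtypePerm (p := S) σ hS) = σ := ofSubtype_subtypePerm hS fun a ha => mem_support.2 ha
  have h2 : (subtypePerm (p := S) σ hS).cycleType = Multiset.replicate w p := by
    rw [← cycleType_ofSubtype, h1, h]
  have h3 : ¬ Subgroup.centralizer {subtypePerm (p := S) σ hS} ≤ alternatingGroup (Subtype S) := by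
    rw [centralizer_le_alternating_iff]
    rintro ⟨-, -, h4⟩
    have := h4 p
    rw [h2, Multiset.count_replicate_self] at this
    omega
  rw [SetLike.not_le_iff_exists] at h3
  obtain ⟨τ, hτ, hτ'⟩ := h3
  refine ⟨ofSubtype τ, ?_, ?_, ?_⟩
  · rw [sign_ofSubtype]
    rw [mem_alternatingGroup] at hτ'
    exact (Int.units_eq_one_or (sign τ)).resolve_left hτ'
  · have h4 := Subgroup.mem_centralizer_singleton_iff.1 hτ
    have h5 := congrArg (fun ρ => ofSubtype ρ) h4
    simp only [map_mul, h1] at h5
    exact h5
  · intro a ha
    obtain ⟨ha', -⟩ := (mem_support_ofSubtype a τ).1 ha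
    exact ha'

end Cfsg.Agent.H112.Comm
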